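import Mathlib
import Cfsg.Agent.Lib.Helper41.CS3.GoodDefs
import Cfsg.Agent.Lib.Helper24.CS3.Basics
import Cfsg.Agent.Lib.Helper71.CS3.Basics

/-!
# CS3 (S4284), part GOOD: package [HY]

`pkgHy_of (hNC) (hG4c) (hSplit) : PkgHy`.
-/

set_option autoImplicit false

namespace Cfsg.Agent.Lib.Helper82.CS3

open Cfsg.Agent.Lib.Helper81.CS3 Cfsg.Agent.Lib.Helper41.CS3

universe u

theorem mem_Cn_iff {G : Type u} [Group G] (x g : G) : g ∈ Cn x ↔ g * x = x * g :=
  Subgroup.mem_centralizer_singleton_iff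

/-- an abelian centralizer containing `w` lies in `C(w)`. -/
theorem Cn_le_of_ab {G : Type u} [Group G] {v w : G} (hab : Ab (Cn v)) (hw : w ∈ Cn v) :
    Cn v ≤ Cn w := by
  intro g hg
  rw [mem_Cn_iff]
  exact hab g hg w hw

theorem eq_of_le_of_index_eq {G : Type u} [Group G] [Finite G] {H K : Subgroup G} (hle : H ≤ K)
    (hidx : H.index = K.index) : H = K := by
  have h1 := Subgroup.relIndex_mul_index hle
  rw [hidx] at h1
  have hK : K.index ≠ 0 := Subgroup.index_ne_zero_of_finite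
  have h2 : H.relIndex K = 1 := by
    have h3 : H.relIndex K * K.index = 1 * K.index := by rw [h1, one_mul]
    exact Nat.eq_of_mul_eq_mul_right (Nat.pos_of_ne_zero hK) h3
  exact le_antisymm hle (Subgroup.relIndex_eq_one.mp h2)

/-- a conjugate of an abelian centralizer is abelian. -/
theorem ab_Cn_conj {G : Type u} [Group G] {a : G} (hab : Ab (Cn a)) (g : G) :
    Ab (Cn (g * a * g⁻¹)) := by
  intro x hx x' hx'
  rw [mem_Cn_iff] at hx hx'
  have h1 : g⁻¹ * x * g ∈ Cn a := by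
    rw [mem_Cn_iff]
    have h : g⁻¹ * (x * (g * a * g⁻¹)) * g = g⁻¹ * ((g * a * g⁻¹) * x) * g := by rw [hx]
    simpa [mul_assoc] using h
  have h2 : g⁻¹ * x' * g ∈ Cn a := by
    rw [mem_Cn_iff]
    have h : g⁻¹ * (x' * (g * a * g⁻¹)) * g = g⁻¹ * ((g * a * g⁻¹) * x') * g := by rw [hx']
    simpa [mul_assoc] using h
  have h3 := hab _ h1 _ h2
  have h4 : g * ((g⁻¹ * x * g) * (g⁻¹ * x' * g)) * g⁻¹ =
      g * ((g⁻¹ * x' * g) * (g⁻¹ * x * g)) * g⁻¹ := by rw [h3]
  simpa [mul_assoc] using h4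

/-- [HY] -/
theorem pkgHy_of (hNC : PkgNC.{u}) (hG4c : PkgG4c.{u}) (hSplit : PkgSplit.{u}) : PkgHy.{u} := by
  intro G _ _ m n hyp s s2 a y hs hsm hs2 hs2m hne hixa hab hy hixy
  have hm := hyp.2.1
  have hn := hyp.2.2.1
  -- (*) an element commuting with an element of class size `m` has class size `≠ m n`
  have hstar : ∀ v w : G, ix v = m → w * v = v * w → ix w ≠ m * n := by
    intro v w hv hwv hw
    obtain ⟨g, hg⟩ := hG4c m n hyp a hixa hab v hv
    have habv : Ab (Cn v) := by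
      rw [hg]
      exact ab_Cn_conj hab g
    have hwmem : w ∈ Cn v := by rw [mem_Cn_iff]; exact hwv
    have hle := Cn_le_of_ab habv hwmem
    have hdvd : ix w ∣ ix v := Subgroup.index_dvd_of_le hle
    rw [hv, hw] at hdvd
    have h1 := Nat.le_of_dvd (by omega) hdvd
    nlinarith
  have hmax : ∀ g : G, (Subgroup.centralizer ({g} : Set G)).index ≤ m * n :=
    fun g => Cfsg.Agent.Lib.Helper24.CS3.index_le hyp g
  -- a non-central `s2`-element `u ∈ C(y)`
  obtain ⟨u, huy, hus2, hunc⟩ := hNC m n hyp s2 hs2 hs2m y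
  have huy' : u * y = y * u := (mem_Cn_iff y u).mp huy
  have hixu : ix u = m * n := by
    rcases Cfsg.Agent.Lib.Helper24.CS3.index_mem hyp u with h | h | h
    · exact absurd ((Cfsg.Agent.Lib.Helper71.CS3.idx_eq_one_iff u).mp h) hunc
    · exact absurd hixy (hstar u y h huy'.symm)
    · exact h
  obtain ⟨k2, hk2⟩ := hus2
  obtain ⟨j, hj⟩ := hy
  have hcop0 : s2.Coprime s := (Nat.coprime_primes hs2 hs).mpr hne
  have hcopuy : (orderOf u).Coprime (orderOf y) := by
    rw [hk2, hj]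
    exact Nat.Coprime.pow _ _ hcop0
  have hCuy : Cn u ≤ Cn y :=
    Cfsg.Agent.Lib.Helper24.CS3.cent_le_of_max hmax u y hixu huy' hcopuy
  have hCyu : Cn y ≤ Cn u :=
    Cfsg.Agent.Lib.Helper24.CS3.cent_le_of_max hmax y u hixy huy'.symm hcopuy.symm
  have hCeq : Cn u = Cn y := le_antisymm hCuy hCyu
  -- `C(y)` is abelian
  have haby : Ab (Cn y) := by
    intro x hx g hg
    obtain ⟨g1, g2, hgg, hg1, hg2, ⟨k1, hk1⟩, ⟨k3, hk3⟩⟩ := hSplit s hs g
    have hg1mem : g1 ∈ Cn y := by rw [hk1]; exact Subgroup.pow_mem _ hg _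
    have hg2mem : g2 ∈ Cn y := by rw [hk3]; exact Subgroup.pow_mem _ hg _
    obtain ⟨i, hi⟩ := hg1
    have h2 : Cn y ≤ Cn g2 := by
      refine Cfsg.Agent.Lib.Helper24.CS3.cent_le_of_max hmax y g2 hixy
        ((mem_Cn_iff y g2).mp hg2mem).symm ?_
      rw [hj]
      exact Nat.Coprime.pow_left j hg2.symm
    have h1 : Cn y ≤ Cn g1 := by
      rw [← hCeq]
      refine Cfsg.Agent.Lib.Helper24.CS3.cent_le_of_max hmax u g1 hixu ?_ ?_
      · have : g1 ∈ Cn u := hCyu hg1mem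
        exact ((mem_Cn_iff u g1).mp this).symm
      · rw [hk2, hi]
        exact Nat.Coprime.pow _ _ hcop0
    have hx1 : x * g1 = g1 * x := (mem_Cn_iff g1 x).mp (h1 hx)
    have hx2 : x * g2 = g2 * x := (mem_Cn_iff g2 x).mp (h2 hx)
    rw [hgg, ← mul_assoc, hx1, mul_assoc, hx2, mul_assoc]
  refine ⟨haby, ?_⟩
  intro v hv hvnc
  have hle : Cn y ≤ Cn v := Cn_le_of_ab haby hv
  have hvy : v * y = y * v := (mem_Cn_iff y v).mp hv
  have hixv : ix v = m * n := by
    rcases Cfsg.Agent.Lib.Helper24.CS3.index_mem hyp v with h | h | h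
    · exact absurd ((Cfsg.Agent.Lib.Helper71.CS3.idx_eq_one_iff v).mp h) hvnc
    · exact absurd hixy (hstar v y h hvy.symm)
    · exact h
  exact (eq_of_le_of_index_eq hle (hixy.trans hixv.symm)).symm

end Cfsg.Agent.Lib.Helper82.CS3
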